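import Mathlib
import Cfsg.Agent.Spor.MB.Over

/-!
# Normalisers of Sylow 11- and 23-subgroups; overgroups of `23:11`
-/

namespace Cfsg.Agent.Spor.MB

open Cfsg MulAction Cfsg.Agent.Spor.Dod
open scoped Pointwise

theorem eq_D0 {d : Finset GolayPt} (hd : d ∈ dodecads) (h : x11 • d = d) (h0 : pt 0 ∈ d) :
    d = D0 := by
  have := forall_dodecads (q := fun m => !(Nat.testBit m 0) || !(Nat.beq (act 983435072843990828779021698901151808 m) m) ||
    Nat.beq m 340831) (by decide +kernel) d hd
  rw [(pt_mem_iff_testBit (by norm_num)).1 h0, ← code_x11, smul_eq_iff_act.1 h] at this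
  rw [← unmask_mask d, Nat.eq_of_beq_eq_true this]

theorem x11_smul_D0 : x11 • D0 = D0 :=
  (smul_unmask_eq_iff (by norm_num)).2 (by rw [code_x11]; decide +kernel)

/-- The group `L₂(11)` in `M22`. -/
abbrev L660 : Subgroup PG := G22 ⊓ stabilizer PG D0

theorem card_L660_le : Nat.card L660 ≤ 660 := by
  have h := bsgs_mul_le ptD (H := M24 ⊓ stabilizer PG D0) (gs := [977671247496162957425977295993086544, 975150920243360852885553705193443362, 425269484306136720163352464879329862])
    (gens_stabSet (by decide +kernel)) [(23, 17, 0x30000001111311113), (0, 15, 0x200211112001111)] 144 (by decide +kernel)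
  rw [card_stab_dodecad D0_mem] at h
  refine le_trans (Subgroup.card_le_of_le ?_) (Nat.le_of_mul_le_mul_left (c := 144) h (by norm_num))
  refine fun g hg => ⟨⟨hg.1.1.1, hg.2⟩, ?_⟩
  intro m hm
  simp only [List.map_cons, List.map_nil, List.mem_cons, List.not_mem_nil, or_false] at hm
  rcases hm with rfl | rfl
  exacts [hg.1.1.2, hg.1.2]

theorem gens_G22 {gs : List ℕ} (h : allL (fun c => Bool.and (inM24 c)
    (Bool.and (Nat.beq (ap c 23) 23) (Nat.beq (ap c 0) 0))) gs = true) : Gens G22 gs :=
  gens_of_check _ (fun _ hg hq => ⟨⟨hg, ptD.smul_eq_of_beq rfl (Bool.and_eq_true_iff.1 hq).1⟩,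
    ptD.smul_eq_of_beq rfl (Bool.and_eq_true_iff.1 hq).2⟩) h

theorem x11_mem_G22 : x11 ∈ G22 :=
  (gens_G22 (gs := [983435072843990828779021698901151808]) (by decide +kernel)).mem (by simp [code_x11])

theorem enumC_L660 : EnumC L660 (mkTs ptD [(1, 10, 0x3123121214), (2, 10, 0x1212132013), (3, 2, 0x12), (4, 1, 0x1)]
    [970499966350631336865513127433832480, 970254902120350598020240965873371168, 968955966875123533138286166201145376, 968673349687673303204841679991868672]) :=
  bsgs_enumC ptD ((gens_G22 (by decide +kernel)).inf_stabSet (by decide +kernel)) _ 660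
    (by decide +kernel) card_L660_le

/-- The normaliser in `M22` of the group generated by `x11`. -/
noncomputable abbrev N22 : Subgroup PG := G22 ⊓ NZ x11

theorem N22_le : N22 ≤ L660 := fun g hg => ⟨hg.1, eq_D0 ((smul_mem_dodecads_iff hg.2.1).2 D0_mem)
  (smul_fixed_of_mem_NZ hg.2 x11_smul_D0) ((mem_smul_iff_of_fix hg.1.2).2 (by decide +kernel))⟩

theorem mem_zpowers_x11 {y : PG} : y ∈ Subgroup.zpowers x11 ↔
    memL [984818244535754528103549039458486304, 983435072843990828779021698901151808, 980668730378935070469623699575545984, 975166140090675008210365318152896768, 965063883269089610517257152230401536, 973782968399780250007192978068752672, 962298451038133363011374430748423744, 969184212989482915311201746032266656, 982051901153124072706648311500937312, 977903326592794432676351619257413824, 970567384681219435340729552166356352] (code y) = true := by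
  rw [memL_iff]
  constructor
  · intro h
    rw [mem_zpowers_iff_mem_range_orderOf, orderOf_x11, Finset.mem_image] at h
    obtain ⟨i, hi, rfl⟩ := h
    have : allN (fun i => memL [984818244535754528103549039458486304, 983435072843990828779021698901151808, 980668730378935070469623699575545984, 975166140090675008210365318152896768, 965063883269089610517257152230401536, 973782968399780250007192978068752672, 962298451038133363011374430748423744, 969184212989482915311201746032266656, 982051901153124072706648311500937312, 977903326592794432676351619257413824, 970567384681219435340729552166356352] (pw 983435072843990828779021698901151808 i)) 11 = true := by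
      decide +kernel
    rw [code_pow, code_x11]
    exact memL_iff.1 (allN_iff.1 this i (Finset.mem_range.1 hi))
  · have : Gens (Subgroup.zpowers x11) [983435072843990828779021698901151808] := fun c hc =>
      ⟨x11, Subgroup.mem_zpowers _, by rw [code_x11, List.mem_singleton.1 hc]⟩
    exact ((this.walk 10 0x1111111111).of_sub (by decide +kernel)).mem

theorem card_N22 : Nat.card N22 = 55 := by
  rw [enumC_L660.card_sub (fun d => memL [984818244535754528103549039458486304, 983435072843990828779021698901151808, 980668730378935070469623699575545984, 975166140090675008210365318152896768, 965063883269089610517257152230401536, 973782968399780250007192978068752672, 962298451038133363011374430748423744, 969184212989482915311201746032266656, 982051901153124072706648311500937312, 977903326592794432676351619257413824, 970567384681219435340729552166356352] (cj d 983435072843990828779021698901151808)) fun g => by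
    rw [show cj (code g) 983435072843990828779021698901151808 = code (g * x11 * g⁻¹) by rw [code_conj, code_x11],
      ← mem_zpowers_x11]
    exact ⟨fun h => ⟨N22_le h, (mem_NZ.1 h.2).2⟩, fun h => ⟨h.1.1, mem_NZ.2 ⟨h.1.1.1.1, h.2⟩⟩⟩]
  decide +kernel

theorem card_C22 : Nat.card ↥(G22 ⊓ CZ x11) = 11 := by
  rw [enumC_L660.card_sub (fun d => comm d 983435072843990828779021698901151808) fun g => by
    rw [← code_x11, comm_iff]
    exact ⟨fun h => ⟨N22_le ⟨h.1, CZ_le_NZ _ h.2⟩, (mem_CZ.1 h.2).2⟩,
      fun h => ⟨h.1.1, mem_CZ.2 ⟨h.1.1.1.1, h.2⟩⟩⟩]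
  decide +kernel

/-- Generators of `11:5`. -/
def gF : List ℕ := [983435072843990828779021698901151808, 968955966875123533138286166201145376]

theorem gens_gF : Gens N22 gF :=
  (gens_G22 (by decide +kernel)).inf (gens_NZ code_x11 11 (by decide +kernel))

theorem N22_le_clo : N22 ≤ clo gF :=
  le_of_bsgs ptD gens_gF gens_gF.clo [(1, 10, 0x1111111111), (2, 4, 0x1111)] 55 (by decide +kernel) card_N22.le

/-- Sylow counting in subgroups of `M22`. -/
theorem count_eleven {K : Subgroup PG} (hK : K ≤ G22) (hx : x11 ∈ K) {m : ℕ}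
    (hm : Nat.card K = 11 * m) : m % 11 = 1 ∨ (5 ∣ m ∧ m % 11 = 5 ∧ N22 ≤ K) := by
  obtain ⟨n, h1, h2⟩ := sylow_count (hK.trans (inf_le_left.trans inf_le_left)) hx (by norm_num)
    orderOf_x11 (not_dvd_of_le hK (by rw [card_G22]; norm_num))
  have h3 : K ⊓ NZ x11 ≤ N22 := inf_le_inf_right _ hK
  have h4 := Subgroup.card_dvd_of_le h3
  have h5 := (K ⊓ NZ x11).orderOf_dvd_natCard ⟨hx, CZ_le_NZ _ (mem_CZ.2 ⟨x11_mem, rfl⟩)⟩
  rw [card_N22] at h4
  rw [orderOf_x11] at h5
  obtain ⟨a, ha⟩ := h5
  rw [ha] at h4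
  rw [Nat.ModEq] at h1
  rcases (Nat.dvd_prime (by norm_num : Nat.Prime 5)).1
    (Nat.dvd_of_mul_dvd_mul_left (by norm_num : 0 < 11) h4) with rfl | rfl
  · rw [ha] at h2; omega
  · refine Or.inr ⟨by rw [ha] at h2; omega, by rw [ha] at h2; omega, ?_⟩
    rw [← Subgroup.eq_of_le_of_card_ge h3 (by rw [card_N22, ha])]
    exact inf_le_left

theorem x23_mem_G23 : x23 ∈ G23 :=
  ((gens_M24 (gs := [956302485175575353788796878166559809]) (by decide +kernel)).inf_pt (by decide +kernel)).mem
    (by simp [code_x23])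

theorem gens_x23 {K : Subgroup PG} (h : x23 ∈ K) : Gens K [956302485175575353788796878166559809] := fun c hc =>
  ⟨x23, h, by rw [code_x23, List.mem_singleton.1 hc]⟩

theorem NZ_x23_le : NZ x23 ≤ G23 := fun g hg => ⟨hg.1, by
  have := smul_fixSet_of_mem_NZ hg
  rwa [fixSet_x23, show 8388608 = 2 ^ 23 by norm_num, smul_unmask_two_pow_iff (by norm_num)]
    at this⟩

theorem orbF_zero {K : Subgroup PG} (hK : K ≤ G23) (h : x23 ∈ K) : (orbF K (pt 0)).card = 23 := by
  have h1 : pt 23 ∉ orbF K (pt 0) := fun h =>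
    absurd (eq_of_mem_orbF (fun g hg => (hK hg).2) h) (by decide +kernel)
  have h2 := card_lt_24 h1
  have h3 : (unmask 8388607).card ≤ (orbF K (pt 0)).card := Finset.card_le_card fun q hq =>
    mem_orbF.2 (pt_trans (gens_x23 h) (by norm_num) 23 _ (by decide +kernel) q hq)
  have h4 : (unmask 8388607).card = 23 := by decide +kernel
  omega

theorem comm_of_NZ {x a b : PG} (ha : a ∈ NZ x) (hb : b ∈ NZ x) :
    (b * a)⁻¹ * (a * b) * x = x * ((b * a)⁻¹ * (a * b)) := by
  obtain ⟨i, hi⟩ := Subgroup.mem_zpowers_iff.1 (mem_NZ.1 ha).2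
  obtain ⟨j, hj⟩ := Subgroup.mem_zpowers_iff.1 (mem_NZ.1 hb).2
  have h1 : a * b * x * (a * b)⁻¹ = b * a * x * (b * a)⁻¹ := by
    calc a * b * x * (a * b)⁻¹ = a * (b * x * b⁻¹) * a⁻¹ := by group
      _ = x ^ (i * j) := by rw [← hj, ← conj_zpow, ← hi, zpow_mul]
      _ = b * (a * x * a⁻¹) * b⁻¹ := by rw [← hi, ← conj_zpow, ← hj, mul_comm, zpow_mul]
      _ = _ := by group
  calc (b * a)⁻¹ * (a * b) * x = (b * a)⁻¹ * (a * b * x * (a * b)⁻¹) * (a * b) := by group
    _ = _ := by rw [h1]; group

theorem x11_mem_NZ : x11 ∈ NZ x23 :=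
  (gens_NZ code_x23 23 (gs := [983435072843990828779021698901151808]) (by decide +kernel)).mem (by simp [code_x11])

theorem card_NZ_x23_le : Nat.card (NZ x23) ≤ 253 := by
  have hx : x23 ∈ NZ x23 := CZ_le_NZ _ (mem_CZ.2 ⟨x23_mem, rfl⟩)
  rw [card_eq_orbF _ (pt 0), orbF_zero NZ_x23_le hx]
  refine Nat.mul_le_mul_left 23 (le_of_le_of_eq (Subgroup.card_le_of_le ?_) card_C22)
  refine fun g hg => ⟨⟨NZ_x23_le hg.1, hg.2⟩, mem_CZ.2 ⟨hg.1.1, ?_⟩⟩
  have h1 := comm_of_NZ hg.1 x11_mem_NZ
  have h2 : (x11 * g)⁻¹ * (g * x11) ∈ G22 := by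
    have : g ∈ G22 := ⟨NZ_x23_le hg.1, hg.2⟩
    exact G22.mul_mem (G22.inv_mem (G22.mul_mem x11_mem_G22 this)) (G22.mul_mem this x11_mem_G22)
  refine (inv_mul_eq_one.1 (Equiv.ext fun q => ?_)).symm
  by_cases hq : q ∈ unmask 8388607
  · obtain ⟨y, hy, rfl⟩ := pt_trans (gens_x23 (Subgroup.mem_zpowers x23)) (i := 0) (by norm_num) 23
      _ (by decide +kernel) q hq
    have h3 : Commute ((x11 * g)⁻¹ * (g * x11)) y := by
      obtain ⟨i, rfl⟩ := Subgroup.mem_zpowers_iff.1 hy
      exact Commute.zpow_right h1 i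
    rw [← Equiv.Perm.mul_apply, h3.eq, Equiv.Perm.mul_apply]
    exact congrArg y h2.2
  · have : ∀ q ∉ unmask 8388607, q = pt 23 := by decide +kernel
    rw [this q hq]
    exact h2.1.2

/-- The overgroups of `23:11` in `M23`. -/
theorem card_over_253 {K : Subgroup PG} (hK : K ≤ G23) (h23 : x23 ∈ K) (h11 : x11 ∈ K) :
    Nat.card K = 253 ∨ Nat.card K = 10200960 := by
  obtain ⟨n, h1, h2⟩ := sylow_count (hK.trans inf_le_left) h23 (by norm_num)
    orderOf_x23 (not_dvd_of_le hK (by rw [card_G23]; norm_num))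
  have a1 := (K ⊓ NZ x23).orderOf_dvd_natCard ⟨h23, CZ_le_NZ _ (mem_CZ.2 ⟨x23_mem, rfl⟩)⟩
  have a2 := (K ⊓ NZ x23).orderOf_dvd_natCard ⟨h11, x11_mem_NZ⟩
  rw [orderOf_x23] at a1
  rw [orderOf_x11] at a2
  have a3 : Nat.card ↥(K ⊓ NZ x23) = 253 :=
    le_antisymm ((Subgroup.card_le_of_le inf_le_right).trans card_NZ_x23_le)
      (Nat.le_of_dvd Nat.card_pos (Nat.Coprime.mul_dvd_of_dvd_of_dvd (by norm_num) a1 a2))
  have a4 := card_eq_orbF K (pt 0)
  rw [orbF_zero hK h23] at a4
  rw [a3] at h2
  have a5 := count_eleven (K := K ⊓ stabilizer PG (pt 0)) (inf_le_inf_right _ hK)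
    ⟨h11, x11_mem_G22.2⟩ (m := n) (by omega)
  have a6 := Subgroup.card_dvd_of_le hK
  rw [card_G23, h2] at a6
  have a7 : n ∣ 40320 := Nat.dvd_of_mul_dvd_mul_right (by norm_num : 0 < 253)
    (a6.trans (by norm_num))
  have a8 : allN (fun i => !(Nat.beq (40320 % (23 * i + 1)) 0) || Nat.beq i 0 || Nat.beq i 1753 ||
      !(memL [1, 5] ((23 * i + 1) % 11))) 1754 = true := by decide +kernel
  have a9 := Nat.le_of_dvd (by norm_num) a7
  rw [Nat.ModEq] at h1
  have := allN_iff.1 a8 (n / 23) (by omega)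
  rw [show 23 * (n / 23) + 1 = n by omega, Nat.mod_eq_zero_of_dvd a7,
    memL_iff.2 (show n % 11 ∈ [1, 5] by rcases a5 with h | h <;> simp [h])] at this
  simp only [Nat.beq_refl, Bool.not_true, Bool.false_or, Bool.or_false, Bool.or_eq_true,
    Nat.beq_eq] at this
  omega

end Cfsg.Agent.Spor.MB
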